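import Cfsg.Agent.Lib.Ent96.Tab
import Cfsg.Agent.Lib.Ent96.Mil
import Cfsg.Agent.S3681

/-! A primitive group of degree `n` not containing the alternating group has order at most `4 ^ n`. -/

set_option autoImplicit false

namespace H96.PS

open MulAction Finset Equiv

universe u

theorem ub_val {n N e : ℕ} (h7 : 7 ≤ n) (hN : n ≤ N) (he : 3 * (e + 1) ^ 2 < 4 * (n - 1)) :
    UB.{u, u} n (val N (fun _ => e) (fun _ => 0) : ℕ) := by
  intro G Ω _ _ _ _ _ _ hn hG h2
  have := bound_val (by omega) (sep_uni hG h2 (by omega) e (by rwa [hn])) N (by omega) (fun _ => 0) (by simp)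
  exact_mod_cast this

theorem ib_free {n N : ℕ} (h7 : 7 ≤ n) (hN : n ≤ N) :
    IB.{u, u} n (val N (fun t => (2 * t + 2) / 3) (fun t => KK / 2 ^ t + 1) : ℕ) := by
  intro G Ω _ _ _ _ _ _ hn h2 a0 hp
  have := bound_val (by omega) (sep_free h2 a0 hp) N (by omega) (fun t => KK / 2 ^ t + 1) (fun t => by
    rw [le_div_iff₀ KK_pos]
    refine le_trans (le_of_eq ?_) (le_div_add_one KK (2 ^ t) (by positivity))
    push_cast
    rw [one_div, inv_pow]; field_simp)
  exact_mod_cast this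

theorem ub_tab {n : ℕ} (h1 : 14 ≤ n) (h2 : n ≤ 70) : UB.{u, u} n (uT.getD n 0 : ℕ) := by
  have h := List.all_eq_true.mp tabU (n - 14) (List.mem_range.mpr (by omega))
  rw [frc_eq, Nat.sub_add_cancel h1] at h
  simp only [chkU, Bool.and_eq_true, decide_eq_true_eq] at h
  intro G Ω _ _ _ _ _ _ hn hG h3
  refine le_trans (ub_val (by omega) le_rfl h.1 G Ω hn hG h3) ?_
  exact_mod_cast h.2

theorem ib_tab {n : ℕ} (h1 : 14 ≤ n) (h2 : n ≤ 70) : IB.{u, u} n (iT.getD n 0 : ℕ) := by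
  have h := List.all_eq_true.mp tabI (n - 14) (List.mem_range.mpr (by omega))
  rw [frc_eq, Nat.sub_add_cancel h1] at h
  intro G Ω _ _ _ _ _ _ hn h3 a0 hp
  obtain ⟨β, b1, b2, hS⟩ := sep_imp h3 a0 hp
  have h4 := List.all_eq_true.mp h (β - 1) (List.mem_range.mpr (by omega))
  rw [frc_eq, Nat.sub_add_cancel b1, decide_eq_true_eq] at h4
  have := bound_val (by omega) hS n (by omega) (fun t => KK * β ^ t / (n - 2) ^ t + 1) (fun t => by
    rw [le_div_iff₀ KK_pos, hn]
    refine le_trans ?_ (le_div_add_one (KK * β ^ t) ((n - 2) ^ t) (pow_pos (by omega) _))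
    have := mul_le_mul_of_nonneg_right (choose_ratio' (β := β) (m := n - 2) (by omega) (by omega) t) KK_pos.le
    refine le_trans this (le_of_eq ?_)
    rw [Nat.cast_mul, Nat.cast_pow, Nat.cast_pow]
    ring)
  exact_mod_cast le_trans this h4

theorem concl {α : Type u} [Fintype α] [DecidableEq α] (G : Subgroup (Perm α)) (hG : IsPreprimitive G α)
    (hA : ¬ alternatingGroup α ≤ G) {n q p l : ℕ} (hn : Fintype.card α = n) (hp : p.Prime) (hl : l.Prime)
    (h3 : 3 ≤ p) (hq : 1 ≤ q) (hqp : q < p) (hl3 : 3 ≤ l) (hql : q < l) (hlr : q * p + l ≤ n) (hr : q * p + 4 ≤ n)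
    (hU : ∀ j < n - q * p, ∃ Y, UB.{u, u} (n - j) Y ∧ n.descFactorial j * Y ≤ 4 ^ n)
    (hI : ∀ j < n - q * p - 1, ∃ Y, IB.{u, u} (n - j) Y ∧ n.descFactorial j * Y ≤ 4 ^ n) :
    Nat.card G ≤ 4 ^ n := by
  have h := chain.{u, u} (4 ^ n) (n - q * p - 1) n 1 zero_le_one (by omega)
    (fun j hj => by simpa using hU j (by omega)) (fun j hj => by simpa using hI j hj) G α hn hG (fun h => hA ?_)
  · rw [one_mul] at h
    exact_mod_cast h
  · rw [show n - q * p - 1 + 2 = (n - q * p) + 1 by omega] at h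
    exact miller G hp (hp.odd_of_ne_two (by omega)) hq hqp hl hl3 hql (by omega) (by omega) (by omega) h

theorem log_bd {s : ℕ} (hs : 100 ≤ s) {L : ℝ} (hL0 : 0 ≤ L) (hL : L ≤ 2 * Real.log (s + 1)) :
    L ^ 2 ≤ 0.8775 * s ∧ L ≤ 0.0942 * s := by
  have hs' : (100 : ℝ) ≤ s := by exact_mod_cast hs
  set y := Real.sqrt (s + 1) with hy
  have hy2 : y ^ 2 = s + 1 := Real.sq_sqrt (by linarith)
  have hy0 : 0 ≤ y := Real.sqrt_nonneg _
  have hy10 : 10 ≤ y := by nlinarith
  have h1 : Real.log (s + 1) = 2 * Real.log y := by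
    rw [← hy2, Real.log_pow]; norm_num
  have h2 : Real.log y ≤ 0.233 * y := by
    have a1 : Real.log y = 3 * Real.log 2 + Real.log (5 / 4) + Real.log (y / 10) := by
      rw [show (3 : ℝ) * Real.log 2 = Real.log (2 ^ 3) by rw [Real.log_pow]; norm_num,
        ← Real.log_mul (by norm_num) (by norm_num), ← Real.log_mul (by norm_num) (by positivity)]
      congr 1; ring
    have a2 := Real.log_le_sub_one_of_pos (show (0 : ℝ) < 5 / 4 by norm_num)
    have a3 := Real.log_le_sub_one_of_pos (show (0 : ℝ) < y / 10 by positivity)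
    have a4 := Real.log_two_lt_d9
    linarith
  have h3 : L ≤ 0.932 * y := by linarith
  constructor
  · have := pow_le_pow_left₀ hL0 h3 2
    nlinarith
  · nlinarith

theorem tail_ineq {n s j t0 e0 : ℕ} (hs : 100 ≤ s) (h1 : s * s ≤ n) (h2 : n < (s + 1) * (s + 1)) (hj : j ≤ 4 * s)
    (h : (t0 = 4 ∧ e0 = s + s / 10) ∨ (t0 = 3 * s ∧ e0 = 2 * s)) :
    (n.descFactorial j : ℝ) * Real.exp ((t0 + 1) * Real.log n + (Real.log n ^ 2 + 1) * n / (0.9 * e0)) ≤ 4 ^ n := by
  have hs' : (100 : ℝ) ≤ s := by exact_mod_cast hs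
  have h1' : (s : ℝ) * s ≤ n := by exact_mod_cast h1
  have h2' : (n : ℝ) ≤ (s + 1) * (s + 1) := by exact_mod_cast h2.le
  have hn0 : (0 : ℝ) < n := by nlinarith
  set L := Real.log n with hL
  have hL0 : 0 ≤ L := Real.log_nonneg (by nlinarith)
  have hL1 : L ≤ 2 * Real.log (s + 1) := by
    rw [two_mul, ← Real.log_mul (by positivity) (by positivity)]
    exact Real.log_le_log hn0 h2'
  obtain ⟨b1, b2⟩ := log_bd hs hL0 hL1
  have a1 : (n.descFactorial j : ℝ) ≤ Real.exp (j * L) := by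
    rw [Real.exp_nat_mul, hL, Real.exp_log hn0]
    exact_mod_cast Nat.descFactorial_le_pow n j
  have a2 : (4 : ℝ) ^ n = Real.exp (n * (2 * Real.log 2)) := by
    rw [Real.exp_nat_mul, show (2 : ℝ) * Real.log 2 = Real.log (2 ^ 2) by rw [Real.log_pow]; norm_num,
      Real.exp_log (by norm_num)]
    norm_num
  refine le_trans (mul_le_mul_of_nonneg_right a1 (Real.exp_pos _).le) ?_
  rw [← Real.exp_add, a2, Real.exp_le_exp]
  have a3 := Real.log_two_gt_d9
  have hj' : (j : ℝ) ≤ 4 * s := by exact_mod_cast hj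
  have a4 : (j : ℝ) * L ≤ 4 * s * L := mul_le_mul_of_nonneg_right hj' hL0
  have a5 : s * L ≤ 0.0942 * n := by nlinarith
  have a6 : L ≤ 0.001 * n := by nlinarith
  have a7 : 1.386 * (n : ℝ) ≤ n * (2 * Real.log 2) := by nlinarith
  rcases h with ⟨rfl, rfl⟩ | ⟨rfl, rfl⟩
  · have c1 : 1.09 * (s : ℝ) ≤ ((s + s / 10 : ℕ) : ℝ) := by
      have : ((109 * s : ℕ) : ℝ) ≤ ((100 * (s + s / 10) : ℕ) : ℝ) := by exact_mod_cast (by omega)
      rw [Nat.cast_mul, Nat.cast_mul] at this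
      norm_num at this ⊢
      linarith
    have c2 : (L ^ 2 + 1) * n / (0.9 * ((s + s / 10 : ℕ) : ℝ)) ≤ 0.91 * n := by
      rw [div_le_iff₀ (by linarith)]
      have : L ^ 2 + 1 ≤ 0.91 * (0.9 * ((s + s / 10 : ℕ) : ℝ)) := by linarith
      nlinarith
    push_cast at c2 ⊢
    linarith
  · have c2 : (L ^ 2 + 1) * n / (0.9 * ((2 * s : ℕ) : ℝ)) ≤ 0.5 * n := by
      push_cast
      rw [div_le_iff₀ (by linarith)]
      have : L ^ 2 + 1 ≤ 0.5 * (0.9 * (2 * (s : ℝ))) := by linarith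
      nlinarith
    push_cast at c2 ⊢
    linarith

theorem main {α : Type u} [Fintype α] [DecidableEq α] (G : Subgroup (Perm α)) (hG : IsPreprimitive G α)
    (hA : ¬ alternatingGroup α ≤ G) : Nat.card G ≤ 4 ^ Fintype.card α := by
  obtain ⟨n, hn⟩ : ∃ n, Fintype.card α = n := ⟨_, rfl⟩
  rw [hn]
  by_cases c1 : n ≤ 21
  · have h := Cfsg.Agent.S3681.result (G := G) (Ω := α) hG (fun h => hA (le_trans h (by
      rintro _ ⟨g, rfl⟩
      exact g.2)))
    rw [hn] at h
    have h2 : ∀ n ≤ 21, Nat.factorial n ≤ 4 ^ n * Nat.factorial ((n + 1) / 2) := by decide +kernel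
    exact Nat.le_of_mul_le_mul_right (le_trans h (h2 n c1)) (Nat.factorial_pos _)
  by_cases c2 : n ≤ 70
  · have h := List.all_eq_true.mp tabS (n - 22) (List.mem_range.mpr (by omega))
    rw [frc_eq, Nat.sub_add_cancel (by omega)] at h
    generalize smT.getD (n - 22) (0, 0, 0) = x at h
    obtain ⟨q, p, l⟩ := x
    simp only [chkS, Bool.and_eq_true, decide_eq_true_eq, List.all_eq_true, List.mem_range] at h
    obtain ⟨⟨⟨h1, h2⟩, h3⟩, h4⟩ := h
    obtain ⟨a, b, c, d, e, f, g, i, k⟩ := okM_spec h1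
    exact concl G hG hA hn a b c d e f g i k
      (fun j hj => ⟨_, ub_tab (by omega) (by omega), by exact_mod_cast h3 j hj⟩)
      (fun j hj => ⟨_, ib_tab (by omega) (by omega), by exact_mod_cast h4 j hj⟩)
  by_cases c3 : n ≤ 10000
  · obtain ⟨⟨n1, N, q, p, l, e0⟩, hx, h5, h6⟩ := cov_spec grT 71 n tabC (by omega) c3
    have h := tabG _ hx
    simp only [chkG, Bool.and_eq_true, decide_eq_true_eq] at h h5 h6
    obtain ⟨⟨⟨⟨h1, h2⟩, h3⟩, h4⟩, h7⟩ := h
    obtain ⟨a, b, c, d, e, f, g, i, k⟩ := okM_spec h1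
    have key : ∀ j W : ℕ, j < n - q * p → N ^ (N - q * p - 1) * W ≤ 4 ^ n1 → (n.descFactorial j : ℝ) * W ≤ 4 ^ n := by
      intro j W hj hW
      have e1 : n.descFactorial j ≤ N ^ (N - q * p - 1) :=
        le_trans (Nat.descFactorial_le_pow n j) (le_trans (Nat.pow_le_pow_left h6 j)
          (Nat.pow_le_pow_right (by omega) (by omega)))
      have e2 : n.descFactorial j * W ≤ 4 ^ n :=
        le_trans (Nat.mul_le_mul_right W e1) (le_trans hW (Nat.pow_le_pow_right (by norm_num) h5))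
      exact_mod_cast e2
    exact concl G hG hA hn a b c d e f g (by omega) (by omega)
      (fun j hj => ⟨_, ub_val (N := N) (e := e0) (by omega) (by omega) (by omega), key j _ hj h4⟩)
      (fun j hj => ⟨_, ib_free (N := N) (by omega) (by omega), key j _ (by omega) h7⟩)
  obtain ⟨s, s1, s2⟩ : ∃ s, s * s ≤ n ∧ n < (s + 1) * (s + 1) := ⟨n.sqrt, Nat.sqrt_le n, Nat.lt_succ_sqrt n⟩
  have hs : 100 ≤ s := by
    by_contra h
    have : (s + 1) * (s + 1) ≤ 100 * 100 := Nat.mul_le_mul (by omega) (by omega)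
    omega
  obtain ⟨p, hp, p1, p2⟩ := Nat.exists_prime_lt_and_le_two_mul (s + 1) (by omega)
  obtain ⟨l, hl, l1, l2⟩ := Nat.exists_prime_lt_and_le_two_mul s (by omega)
  have s3 : 100 * s ≤ n := le_trans (Nat.mul_le_mul_right s hs) s1
  set q := (n - 2 * s) / p with hq
  have q1 : q * p ≤ n - 2 * s := Nat.div_mul_le_self _ _
  have q2 : n - 2 * s < q * p + p := Nat.lt_div_mul_add hp.pos
  have q3 : 1 ≤ q := by
    rw [hq, Nat.le_div_iff_mul_le hp.pos]; omega
  have q4 : q ≤ s := by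
    by_contra h
    have : (s + 1) * (s + 1) ≤ q * p := Nat.mul_le_mul (by omega) (by omega)
    omega
  refine concl G hG hA hn hp hl (by omega) q3 (by omega) (by omega) (by omega) (by omega) (by omega)
    (fun j hj => ⟨_, ?_, tail_ineq (j := j) hs s1 s2 (by omega) (Or.inl ⟨rfl, rfl⟩)⟩)
    (fun j hj => ⟨_, ?_, tail_ineq (j := j) hs s1 s2 (by omega) (Or.inr ⟨rfl, rfl⟩)⟩)
  · intro H Ω _ _ _ _ _ _ hm hH h2
    have he : 3 * (s + s / 10 + 1) ^ 2 < 4 * (Fintype.card Ω - 1) := by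
      have e1 : 10 * (s + s / 10 + 1) ≤ 11 * s + 10 := by omega
      have e2 : s * s ≤ Fintype.card Ω - 1 + 4 * s + 1 := by omega
      have e3 := Nat.pow_le_pow_left e1 2
      nlinarith
    exact bound_tail (by omega) ((sep_uni hH h2 (by omega) _ he).mono (fun _ => le_rfl)
      (π' := fun t => (1 / 2) ^ t) (fun t => by positivity)) n (by omega) 4 _ (fun _ _ => le_rfl) (fun _ => le_rfl)
      le_rfl (by omega) (by omega)
  · intro H Ω _ _ _ _ _ _ hm h2 a0 hp
    exact bound_tail (by omega) (sep_free h2 a0 hp) n (by omega) (3 * s) _ (fun t ht => by omega) (fun _ => le_rfl)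
      (by omega) (by omega) (by omega)

end H96.PS
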